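import Cfsg.Agent.H302.Struct

/-!
# The abelian subgroup of order 64 is unique (helper302)

`Emb.unique`: the only abelian subgroup of order 64 of `S = UT_5(2)/Z` is `A`; `Emb.card_center_le`: the centre of a
subgroup of order 256 has order at most 8.
-/

set_option autoImplicit false

namespace Cfsg.Agent.H302

open Subgroup

/-- the image in `S / A` -/
def dp (v : V) : Bool × Bool × Bool := (v.a23, v.a34, v.a24)

/-- product of the images -/
def dm (d e : Bool × Bool × Bool) : Bool × Bool × Bool :=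
  (d.1 ^^ e.1, d.2.1 ^^ e.2.1, (d.2.2 ^^ e.2.2) ^^ (d.1 && e.2.1))

/-- commuting of the images -/
def cD (d e : Bool × Bool × Bool) : Bool := (d.1 && e.2.1) == (e.1 && d.2.1)

/-- commuting of an element of `A` with an element with image `d` -/
def cA (d : Bool × Bool × Bool) (a : V) : Bool :=
  (!(a.a12 && d.1) && !(d.2.1 && a.a45)) &&
    (!((a.a13 && d.2.1) ^^ (a.a12 && d.2.2)) && !((d.2.2 && a.a45) ^^ (d.1 && a.a35)))

abbrev d0 : Bool × Bool × Bool := (false, false, false)

theorem dp_mul (a b : V) : dp (mul a b) = dm (dp a) (dp b) := rfl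

theorem dp_eq_zero {v : V} : dp v = d0 ↔ pA v = true := by
  rw [pA_iff]
  simp [dp, d0]

theorem cD_of_comm {a b : V} (h : mul a b = mul b a) : cD (dp a) (dp b) = true := by
  have h1 := congrArg V.a24 h
  obtain ⟨s12, s23, s34, s45, s13, s24, s35, s14, s25⟩ := a
  obtain ⟨t12, t23, t34, t45, t13, t24, t35, t14, t25⟩ := b
  simp only [mul] at h1
  simp only [cD, dp]
  clear h
  revert s23 s34 s24 t23 t34 t24
  decide

theorem cA_of_comm {a b : V} (ha : pA a = true) (h : mul b a = mul a b) : cA (dp b) a = true := by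
  rw [pA_iff] at ha
  obtain ⟨h1, h2, h3⟩ := ha
  obtain ⟨t12, t23, t34, t45, t13, t24, t35, t14, t25⟩ := b
  have e1 := congrArg V.a13 h
  have e2 := congrArg V.a35 h
  have e3 := congrArg V.a14 h
  have e4 := congrArg V.a25 h
  obtain ⟨s12, s23, s34, s45, s13, s24, s35, s14, s25⟩ := a
  simp only at h1 h2 h3
  subst h1 h2 h3
  simp only [mul, Bool.and_false, Bool.false_and, Bool.xor_false, Bool.false_xor] at e1 e2 e3 e4
  clear h
  simp only [cA, dp, Bool.and_eq_true, Bool.not_eq_true']
  refine ⟨⟨?_, ?_⟩, ?_, ?_⟩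
  · clear e2 e3 e4
    revert t13 s13 s12 t23; decide
  · clear e1 e3 e4
    revert t35 s35 s45 t34; decide
  · clear e1 e2 e4
    revert t14 s14 s13 t34 s12 t24; decide
  · clear e1 e2 e3
    revert t25 s25 t24 s45 t23 s35; decide

theorem cnt1 : ∀ d : Bool × Bool × Bool, d ≠ d0 →
    (Finset.univ.filter (fun a : V => (pA a && cA d a) = true)).card ≤ 16 := by
  decide +kernel

theorem cnt2 : ∀ d e : Bool × Bool × Bool, d ≠ d0 → e ≠ d0 → dm d e ≠ d0 →
    (Finset.univ.filter (fun a : V => (pA a && (cA d a && cA e a)) = true)).card ≤ 8 := by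
  decide +kernel

theorem cnt3 : ∀ d e : Bool × Bool × Bool, d ≠ d0 → e ≠ d0 → dm d e ≠ d0 → cD d e = true →
    (Finset.univ.filter (fun c : Bool × Bool × Bool => (cD c d && cD c e) = true)).card ≤ 4 := by
  decide +kernel

theorem cnt4 : ∀ d : Bool × Bool × Bool,
    (Finset.univ.filter (fun c : Bool × Bool × Bool => c = d0 ∨ dm d c = d0)).card ≤ 2 := by
  decide +kernel

section
variable {G : Type*} [Group G] {S : Subgroup G} {u : V → G}

open Classical in
/-- the codes of a subgroup -/
noncomputable def codes (u : V → G) (B : Subgroup G) : Finset V := Finset.univ.filter (fun v => u v ∈ B)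

theorem mem_codes {B : Subgroup G} {v : V} : v ∈ codes u B ↔ u v ∈ B := by
  simp [codes]

theorem card_codes (h : Emb S u) {B : Subgroup G} (hB : B ≤ S) : (codes u B).card = Nat.card B := by
  have e : {v // v ∈ codes u B} ≃ B := Equiv.ofBijective (fun v => (⟨u v.1, mem_codes.1 v.2⟩ : B)) ⟨by
    intro a b hab
    exact Subtype.ext (h.inj (congrArg Subtype.val hab)), by
    rintro ⟨g, hg⟩
    obtain ⟨a, rfl⟩ := h.surj g (hB hg)
    exact ⟨⟨a, mem_codes.2 hg⟩, rfl⟩⟩
  rw [← Nat.card_congr e, Nat.card_eq_fintype_card, Fintype.card_coe]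

/-- the codes of `B ∩ A` -/
noncomputable def codesA (u : V → G) (B : Subgroup G) : Finset V := (codes u B).filter (fun v => pA v = true)

/-- all fibres over `S / A` have at most `|B ∩ A|` elements -/
theorem fiber_le (h : Emb S u) {B : Subgroup G} (d : Bool × Bool × Bool) :
    ((codes u B).filter (fun v => dp v = d)).card ≤ (codesA u B).card := by
  by_cases hne : ((codes u B).filter (fun v => dp v = d)).Nonempty
  · obtain ⟨v0, hv0⟩ := hne
    rw [Finset.mem_filter] at hv0
    refine Finset.card_le_card_of_injOn (fun v => mul (iv v0) v) ?_ ?_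
    · intro v hv
      rw [Finset.mem_coe, Finset.mem_filter] at hv
      rw [Finset.mem_coe, codesA, Finset.mem_filter, mem_codes, h.mul, ← h.inv]
      refine ⟨mul_mem (inv_mem (mem_codes.1 hv0.1)) (mem_codes.1 hv.1), ?_⟩
      have e : dp v = dp v0 := hv.2.trans hv0.2.symm
      obtain ⟨s12, s23, s34, s45, s13, s24, s35, s14, s25⟩ := v
      obtain ⟨t12, t23, t34, t45, t13, t24, t35, t14, t25⟩ := v0
      simp only [dp, Prod.mk.injEq] at e
      obtain ⟨rfl, rfl, rfl⟩ := e
      simp only [pA, mul, iv]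
      clear hv hv0
      revert s23 s34 s24
      decide
    · intro v _ w _ hvw
      have h1 := congrArg u hvw
      simp only [h.mul] at h1
      exact h.inj (mul_left_cancel h1)
  · rw [Finset.not_nonempty_iff_eq_empty] at hne
    rw [hne]
    exact Nat.zero_le _

theorem card_le_image (h : Emb S u) {B : Subgroup G} (hB : B ≤ S) :
    Nat.card B ≤ (codesA u B).card * ((codes u B).image dp).card := by
  rw [← card_codes h hB]
  exact Finset.card_le_mul_card_image _ _ (fun d _ => fiber_le h d)

theorem codesA_le {B : Subgroup G} {b : V} (hb : ∀ a, u a ∈ B → pA a = true → mul b a = mul a b)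
    (hbA : pA b ≠ true) : (codesA u B).card ≤ 16 := by
  refine le_trans (Finset.card_le_card ?_) (cnt1 (dp b) (fun h1 => hbA (dp_eq_zero.1 h1)))
  intro a ha
  rw [codesA, Finset.mem_filter, mem_codes] at ha
  rw [Finset.mem_filter]
  refine ⟨Finset.mem_univ _, ?_⟩
  rw [Bool.and_eq_true]
  exact ⟨ha.2, cA_of_comm ha.2 (hb a ha.1 ha.2)⟩

/-- a subgroup `B` with `|B| > 2 |B ∩ A|` contains an element outside `A ∪ b A` -/
theorem exists_third (h : Emb S u) {B : Subgroup G} (hB : B ≤ S) (b : V)
    (hc : (codesA u B).card * 2 < Nat.card B) : ∃ c, u c ∈ B ∧ dp c ≠ d0 ∧ dm (dp b) (dp c) ≠ d0 := by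
  by_contra hcon
  push Not at hcon
  have h1 : ((codes u B).image dp).card ≤ 2 := by
    refine le_trans (Finset.card_le_card ?_) (cnt4 (dp b))
    intro d hd
    rw [Finset.mem_image] at hd
    obtain ⟨c, hc, rfl⟩ := hd
    rw [Finset.mem_filter]
    refine ⟨Finset.mem_univ _, ?_⟩
    by_cases h2 : dp c = d0
    · exact Or.inl h2
    · exact Or.inr (hcon c (mem_codes.1 hc) h2)
  have h2 := card_le_image h hB
  have h3 := Nat.mul_le_mul_left (codesA u B).card h1
  omega

/-- **`A` is the only abelian subgroup of order 64.** -/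
theorem Emb.unique (h : Emb S u) {B : Subgroup G} (hB : B ≤ S) (hBc : IsMulCommutative B)
    (h64 : Nat.card B = 64) : B = h.A := by
  have hfin : Finite h.A := Nat.finite_of_card_ne_zero (by rw [h.card_A]; norm_num)
  by_contra hne
  have hnle : ¬ B ≤ h.A := by
    intro hle
    exact hne (Subgroup.eq_of_le_of_card_ge hle (by rw [h64, h.card_A]))
  obtain ⟨g, hgB, hgA⟩ := SetLike.not_le_iff_exists.1 hnle
  obtain ⟨b, rfl⟩ := h.surj g (hB hgB)
  rw [h.mem_A] at hgA
  have hcomm : ∀ x y, u x ∈ B → u y ∈ B → H302.mul x y = H302.mul y x := by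
    intro x y hx hy
    rw [← h.commute_iff]
    exact congrArg Subtype.val (hBc.is_comm.comm (⟨u x, hx⟩ : B) ⟨u y, hy⟩)
  have h16 : (codesA u B).card ≤ 16 := codesA_le (fun a ha _ => hcomm b a hgB ha) hgA
  obtain ⟨c, hcB, hc0, hbc⟩ := exists_third h hB b (by omega)
  have hb0 : dp b ≠ d0 := fun h1 => hgA (dp_eq_zero.1 h1)
  have h8 : (codesA u B).card ≤ 8 := by
    refine le_trans (Finset.card_le_card ?_) (cnt2 (dp b) (dp c) hb0 hc0 hbc)
    intro a ha
    rw [codesA, Finset.mem_filter, mem_codes] at ha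
    rw [Finset.mem_filter]
    refine ⟨Finset.mem_univ _, ?_⟩
    rw [Bool.and_eq_true, Bool.and_eq_true]
    exact ⟨ha.2, cA_of_comm ha.2 (hcomm b a hgB ha.1), cA_of_comm ha.2 (hcomm c a hcB ha.1)⟩
  have h4 : ((codes u B).image dp).card ≤ 4 := by
    refine le_trans (Finset.card_le_card ?_) (cnt3 (dp b) (dp c) hb0 hc0 hbc (cD_of_comm (hcomm b c hgB hcB)))
    intro d hd
    rw [Finset.mem_image] at hd
    obtain ⟨a, ha, rfl⟩ := hd
    rw [mem_codes] at ha
    rw [Finset.mem_filter]
    refine ⟨Finset.mem_univ _, ?_⟩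
    rw [Bool.and_eq_true]
    exact ⟨cD_of_comm (hcomm a b ha hgB), cD_of_comm (hcomm a c ha hcB)⟩
  have h5 := card_le_image h hB
  have h6 : (codesA u B).card * ((codes u B).image dp).card ≤ 8 * 4 := Nat.mul_le_mul h8 h4
  omega

/-- **The centre of a subgroup of order 256 has order at most 8.** -/
theorem Emb.card_center_le (h : Emb S u) {B : Subgroup G} (hB : B ≤ S) (h256 : Nat.card B = 256) :
    Nat.card (center B) ≤ 8 := by
  -- the centre as a subgroup of `G`
  set Z : Subgroup G := (center B).map B.subtype with hZ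
  have hZc : Nat.card Z = Nat.card (center B) := by
    rw [hZ]
    exact Nat.card_congr ((center B).equivMapOfInjective B.subtype B.subtype_injective).symm.toEquiv
  have hZS : Z ≤ S := (Subgroup.map_subtype_le _).trans hB
  have hcomm : ∀ z y, u z ∈ Z → u y ∈ B → H302.mul z y = H302.mul y z := by
    intro z y hz hy
    rw [← h.commute_iff]
    obtain ⟨⟨t, ht⟩, htc, ht'⟩ := hz
    have h1 := (mem_center_iff.1 htc) ⟨u y, hy⟩
    have h2 := congrArg Subtype.val h1
    change u y * t = t * u y at h2
    change t = u z at ht'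
    rw [← ht', h2]
  have hAcard : (codesA u B).card ≤ 64 := by
    have h1 : (codesA u B).card ≤ (codes u h.A).card := by
      apply Finset.card_le_card
      intro a ha
      rw [codesA, Finset.mem_filter] at ha
      exact mem_codes.2 (h.mem_A.2 ha.2)
    rwa [card_codes h h.A_le, h.card_A] at h1
  have himg : ((codes u B).image dp).card ≤ 8 := by
    refine le_trans (Finset.card_le_card (Finset.subset_univ _)) ?_
    decide
  -- the centre lies in `A`
  have hZA : ∀ z, u z ∈ Z → pA z = true := by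
    intro z hz
    by_contra hcon
    have h16 : (codesA u B).card ≤ 16 := codesA_le (fun a ha _ => hcomm z a hz ha) hcon
    have h5 := card_le_image h hB
    have h6 : (codesA u B).card * ((codes u B).image dp).card ≤ 16 * 8 := Nat.mul_le_mul h16 himg
    omega
  obtain ⟨b, hbB, hb0, -⟩ := exists_third h hB H302.one (by omega)
  obtain ⟨c, hcB, hc0, hbc⟩ := exists_third h hB b (by omega)
  rw [← hZc, ← card_codes h hZS]
  refine le_trans (Finset.card_le_card ?_) (cnt2 (dp b) (dp c) hb0 hc0 hbc)
  intro a ha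
  rw [mem_codes] at ha
  rw [Finset.mem_filter]
  refine ⟨Finset.mem_univ _, ?_⟩
  rw [Bool.and_eq_true, Bool.and_eq_true]
  exact ⟨hZA a ha, cA_of_comm (hZA a ha) (hcomm a b ha hbB).symm, cA_of_comm (hZA a ha) (hcomm a c ha hcB).symm⟩

end

end Cfsg.Agent.H302
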