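import Cfsg.Agent.H302.Ess
import Cfsg.Prelude.Def_TwoFusion

/-!
# Essential subgroups of `UT_5(2)/Z`: the third case, and `A` is strongly closed (helper302)
-/

set_option autoImplicit false

namespace Cfsg.Agent.H302

open Subgroup Cfsg.Agent.Lib.EssDefs Cfsg.Agent.Lib.EssBridge
open Cfsg.Agent.Lib.GoldschmidtFusion (map_conj_le_of_le_normalizer)

universe uu

variable {G : Type uu} [Group G] [Finite G] {S X H : Subgroup G} {u : V → G}

/-- `g` has at most two conjugates under `X` -/
def PP (X : Subgroup G) (g : G) : Prop := ∃ c : G, ∀ s ∈ X, s * g * s⁻¹ = g ∨ s * g * s⁻¹ = c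

omit [Finite G] in
theorem PP_conj {X : Subgroup G} {g n : G} (hn : n ∈ normalizer (X : Set G)) (hg : PP X g) :
    PP X (n * g * n⁻¹) := by
  obtain ⟨c, hc⟩ := hg
  refine ⟨n * c * n⁻¹, fun s hs => ?_⟩
  have hs' : n⁻¹ * s * n ∈ X := (mem_normalizer_iff''.1 hn s).1 hs
  have e : s * (n * g * n⁻¹) * s⁻¹ = n * ((n⁻¹ * s * n) * g * (n⁻¹ * s * n)⁻¹) * n⁻¹ := by group
  rcases hc _ hs' with h1 | h1
  · left
    rw [e, h1]
  · right
    rw [e, h1]

omit [Finite G] in
theorem closure_conj {T : Set G} {n : G} (hT : ∀ t ∈ T, n * t * n⁻¹ ∈ T) {d : G} (hd : d ∈ closure T) :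
    n * d * n⁻¹ ∈ closure T := by
  induction hd using closure_induction with
  | mem x hx => exact subset_closure (hT x hx)
  | one => simp
  | mul x y _ _ hx hy =>
    have : n * (x * y) * n⁻¹ = (n * x * n⁻¹) * (n * y * n⁻¹) := by group
    rw [this]
    exact mul_mem hx hy
  | inv x _ hx =>
    have : n * x⁻¹ * n⁻¹ = (n * x * n⁻¹)⁻¹ := by group
    rw [this]
    exact inv_mem hx

/-- the subgroup generated by the elements with at most two conjugates -/
def N2 (X : Subgroup G) : Subgroup G := closure {g | g ∈ X ∧ PP X g}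
/-- the subgroup generated by their commutators -/
def D2 (X : Subgroup G) : Subgroup G := closure {d | ∃ s g, s ∈ X ∧ g ∈ X ∧ PP X g ∧ d = s * g * s⁻¹ * g⁻¹}

omit [Finite G] in
theorem N2_conj {X : Subgroup G} {n : G} (hn : n ∈ normalizer (X : Set G)) {d : G} (hd : d ∈ N2 X) :
    n * d * n⁻¹ ∈ N2 X := by
  refine closure_conj ?_ hd
  rintro g ⟨hg, hg'⟩
  exact ⟨(mem_normalizer_iff.1 hn g).1 hg, PP_conj hn hg'⟩

omit [Finite G] in
theorem D2_conj {X : Subgroup G} {n : G} (hn : n ∈ normalizer (X : Set G)) {d : G} (hd : d ∈ D2 X) :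
    n * d * n⁻¹ ∈ D2 X := by
  refine closure_conj ?_ hd
  rintro _ ⟨s, g, hs, hg, hg', rfl⟩
  refine ⟨n * s * n⁻¹, n * g * n⁻¹, (mem_normalizer_iff.1 hn s).1 hs, (mem_normalizer_iff.1 hn g).1 hg,
    PP_conj hn hg', ?_⟩
  group

omit [Finite G] in
theorem N2_le {X : Subgroup G} : N2 X ≤ X := (closure_le _).2 fun _ h => h.1

omit [Finite G] in
theorem D2_le {X : Subgroup G} : D2 X ≤ N2 X := by
  refine (closure_le _).2 ?_
  rintro _ ⟨s, g, hs, hg, hg', rfl⟩
  have hs' : s ∈ normalizer (X : Set G) := le_normalizer hs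
  exact mul_mem (N2_conj hs' (subset_closure ⟨hg, hg'⟩)) (inv_mem (subset_closure ⟨hg, hg'⟩))

/-- case (iii): some element of `X` is non-trivial on both -/
theorem case_three (hS : IsPGroup 2 S) (h : Emb S u) (hX : IsEss 2 S X H) {x : V} (hx : u x ∈ X)
    (h23 : x.a23 = true) (h34 : x.a34 = true) : h.A ≤ X := by
  have hXS := hX.lt.le
  have f2 : Fact (Nat.Prime 2) := ⟨Nat.prime_two⟩
  have hKX : ∀ k, pK k = true → u k ∈ X := fun k hk => K_mem h hX hk
  -- first `I ≤ X`
  have hI : ∀ a, pI a = true → u a ∈ X := by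
    intro a ha
    have haN : u a ∈ normalizer (X : Set G) := by
      apply mem_normalizer_of_comm
      intro y hy
      obtain ⟨v, rfl⟩ := h.surj y (hXS hy)
      rw [h.comm]
      exact hKX _ (pK_cm_I ha)
    obtain ⟨D, hD⟩ : ∃ D : ℕ → Subgroup G, D = fun n => if n = 0 then X else
      if n = 1 then Cfsg.Agent.Hex.SE.omegaZ X else ⊥ := ⟨_, rfl⟩
    refine Cfsg.Agent.Hex.SE.mem_of_chain hS hX D (k := 2) (by rw [hD]; rfl) (by rw [hD]; rfl) ?_ ?_ (h.mem a)
      haN ?_
    · intro i
      rw [hD]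
      rcases i with _ | _ | i
      · exact fun v hv => hv.1
      · exact bot_le
      · exact le_rfl
    · intro n hn i d hd
      rw [hD] at hd ⊢
      rcases i with _ | _ | i
      · exact (mem_normalizer_iff.1 hn d).1 hd
      · exact Cfsg.Agent.Hex.SE.omegaZ_conj hn hd
      · have hd1 : d = 1 := hd
        have : n * d * n⁻¹ = 1 := by rw [hd1]; group
        exact this
    · intro i d hd
      rw [hD] at hd ⊢
      rcases i with _ | _ | i
      · obtain ⟨v, rfl⟩ := h.surj d (hXS hd)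
        change u a * u v * (u a)⁻¹ * (u v)⁻¹ ∈ Cfsg.Agent.Hex.SE.omegaZ X
        rw [h.comm]
        have hk : pK (cm a v) = true := pK_cm_I ha
        refine ⟨hKX _ hk, ?_, ?_⟩
        · rw [mem_centralizer_iff]
          intro y hy
          obtain ⟨w, rfl⟩ := h.surj y (hXS hy)
          exact h.commute (cm_K hk)
        · rw [← h.mul, mul_self_A _ ?_, h.one]
          rw [pA_iff]
          rw [pK_iff] at hk
          exact ⟨hk.1, hk.2.1, hk.2.2.1⟩
      · have hd' : d ∈ Cfsg.Agent.Hex.SE.omegaZ X := hd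
        obtain ⟨hdX, hdC, hd2⟩ := hd'
        obtain ⟨w, rfl⟩ := h.surj d (hXS hdX)
        change u a * u w * (u a)⁻¹ * (u w)⁻¹ = 1
        have h1 : cD (dp x) (dp w) = true :=
          cD_of_comm ((h.commute_iff x w).1 (mem_centralizer_iff.1 hdC _ hx))
        have h2 : H302.mul w w = H302.one := by
          apply h.inj
          rw [h.mul, h.one]
          exact hd2
        have h3 := congrArg V.a24 h2
        simp only [cD, dp, h23, h34, Bool.true_and, Bool.and_true, beq_iff_eq] at h1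
        simp only [mul, H302.one, Bool.xor_self, Bool.false_xor] at h3
        rw [h1, Bool.and_self] at h3
        rw [h.comm, cm_IM ha h3 (h1.trans h3), h.one]
      · have hd1 : d = 1 := hd
        have : u a * d * (u a)⁻¹ * d⁻¹ = 1 := by rw [hd1]; group
        exact this
  have hxx : u (mul x x) ∈ X := by
    rw [h.mul]
    exact mul_mem hx hx
  have hc13 : u c13 ∈ X := hI _ (by decide)
  have hc35 : u c35 ∈ X := hI _ (by decide)
  -- the elements of `N2 X` have codes in `M`
  have hNM : N2 X ≤ h.M := by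
    refine (closure_le _).2 ?_
    rintro g ⟨hg, c, hc⟩
    obtain ⟨w, rfl⟩ := h.surj g (hXS hg)
    rw [SetLike.mem_coe, h.mem_M]
    by_contra hcon
    obtain ⟨s, s', hs, hs', n1, n2, n3⟩ := exists_two h23 h34 hcon
    have hmem : ∀ s : V, (s = x ∨ s = mul x x ∨ s = c13 ∨ s = c35) → u s ∈ X := by
      rintro s (rfl | rfl | rfl | rfl)
      exacts [hx, hxx, hc13, hc35]
    have key : ∀ s : V, (s = x ∨ s = mul x x ∨ s = c13 ∨ s = c35) → cm s w ≠ H302.one →
        u (cm s w) * u w = c := by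
      intro s hs hn
      have h1 := hc _ (hmem s hs)
      have h2 := h.comm s w
      have h3 : u s * u w * (u s)⁻¹ = u (cm s w) * u w := by rw [← h2]; group
      rw [h3] at h1
      refine h1.resolve_left fun h4 => hn (h.inj ?_)
      rw [h.one]
      exact mul_eq_right.1 h4
    apply n3
    apply h.inj
    exact mul_right_cancel ((key s hs n1).trans (key s' hs' n2).symm)
  -- elements of `I` with few conjugates
  have hPI : ∀ v, pI v = true → (v.a13 = false ∨ v.a35 = false) → PP X (u v) := by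
    intro v hv hv'
    rw [pI_iff] at hv
    obtain ⟨h1, h2, h3, h4, h5⟩ := hv
    rcases hv' with h6 | h6
    · refine ⟨u c25 * u v, fun s hs => ?_⟩
      obtain ⟨s, rfl⟩ := h.surj s (hXS hs)
      have e : u s * u v * (u s)⁻¹ = u (cm s v) * u v := by rw [← h.comm s v]; group
      rw [e]
      by_cases h7 : (s.a23 && v.a35) = true
      · right
        congr 2
        apply V.ext' <;> simp [cm, h1, h2, h3, h4, h5, h6]
        simpa using h7
      · left
        have : cm s v = H302.one := by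
          apply V.ext' <;> simp [cm, H302.one, h1, h2, h3, h4, h5, h6]
          simpa using h7
        rw [this, h.one, one_mul]
    · refine ⟨u c14 * u v, fun s hs => ?_⟩
      obtain ⟨s, rfl⟩ := h.surj s (hXS hs)
      have e : u s * u v * (u s)⁻¹ = u (cm s v) * u v := by rw [← h.comm s v]; group
      rw [e]
      by_cases h7 : (v.a13 && s.a34) = true
      · right
        congr 2
        apply V.ext' <;> simp [cm, h1, h2, h3, h4, h5, h6]
        simpa using h7
      · left
        have : cm s v = H302.one := by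
          apply V.ext' <;> simp [cm, H302.one, h1, h2, h3, h4, h5, h6]
          simpa using h7
        rw [this, h.one, one_mul]
  have hIN : ∀ a, pI a = true → u a ∈ N2 X := by
    have h1 : ∀ v, pI v = true → (v.a13 = false ∨ v.a35 = false) → u v ∈ N2 X :=
      fun v hv hv' => subset_closure ⟨hI v hv, hPI v hv hv'⟩
    intro v hv
    by_cases hv' : v.a13 = false ∨ v.a35 = false
    · exact h1 v hv hv'
    · push Not at hv'
      have e : v = mul c13 (mul c13 v) := by
        rw [pI_iff] at hv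
        obtain ⟨h1, h2, h3, h4, h5⟩ := hv
        apply V.ext' <;> simp [mul, h1, h2, h3, h4, h5]
      rw [e, h.mul]
      refine mul_mem (h1 _ (by decide) (Or.inr rfl)) (h1 _ (pI_mul _ _ (by decide) hv) (Or.inl ?_))
      simp [mul, hv'.1]
  have hKD : ∀ k, pK k = true → u k ∈ D2 X := by
    have h1 : u c14 ∈ D2 X := by
      refine subset_closure ⟨u x, u c13, hx, hc13, hPI _ (by decide) (Or.inr rfl), ?_⟩
      rw [h.comm]
      congr 1
      apply V.ext' <;> simp [cm, h34]
    have h2 : u c25 ∈ D2 X := by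
      refine subset_closure ⟨u x, u c35, hx, hc35, hPI _ (by decide) (Or.inl rfl), ?_⟩
      rw [h.comm]
      congr 1
      apply V.ext' <;> simp [cm, h23]
    intro k hk
    rw [pK_iff] at hk
    obtain ⟨k12, k23, k34, k45, k13, k24, k35, k14, k25⟩ := k
    simp only at hk
    obtain ⟨rfl, rfl, rfl, rfl, rfl, rfl, rfl⟩ := hk
    rcases k14 with _ | _ <;> rcases k25 with _ | _
    · have : u H302.one ∈ D2 X := by rw [h.one]; exact one_mem _
      exact this
    · exact h2
    · exact h1
    · have : u (mul c14 c25) ∈ D2 X := by rw [h.mul]; exact mul_mem h1 h2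
      exact this
  have hDK : D2 X ≤ h.K := by
    refine (closure_le _).2 ?_
    rintro _ ⟨s, g, hs, hg, hg', rfl⟩
    obtain ⟨s, rfl⟩ := h.surj s (hXS hs)
    obtain ⟨g, rfl⟩ := h.surj g (hXS hg)
    rw [h.comm, SetLike.mem_coe, h.mem_K]
    exact pK_cm_M (h.mem_M.1 (hNM (subset_closure ⟨hg, hg'⟩)))
  rintro _ ⟨a, ha, rfl⟩
  have haN : u a ∈ normalizer (X : Set G) := by
    apply mem_normalizer_of_comm
    intro y hy
    obtain ⟨v, rfl⟩ := h.surj y (hXS hy)
    rw [h.comm]
    exact hI _ (pI_cm_A ha)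
  obtain ⟨D, hD⟩ : ∃ D : ℕ → Subgroup G, D = fun n => if n = 0 then X else
    if n = 1 then N2 X else if n = 2 then D2 X else ⊥ := ⟨_, rfl⟩
  refine Cfsg.Agent.Hex.SE.mem_of_chain hS hX D (k := 3) (by rw [hD]; rfl) (by rw [hD]; rfl) ?_ ?_ (h.mem a)
    haN ?_
  · intro i
    rw [hD]
    rcases i with _ | _ | _ | i
    · exact N2_le
    · exact D2_le
    · exact bot_le
    · exact le_rfl
  · intro n hn i d hd
    rw [hD] at hd ⊢
    rcases i with _ | _ | _ | i
    · exact (mem_normalizer_iff.1 hn d).1 hd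
    · exact N2_conj hn hd
    · exact D2_conj hn hd
    · have hd1 : d = 1 := hd
      have : n * d * n⁻¹ = 1 := by rw [hd1]; group
      exact this
  · intro i d hd
    rw [hD] at hd ⊢
    rcases i with _ | _ | _ | i
    · obtain ⟨v, rfl⟩ := h.surj d (hXS hd)
      change u a * u v * (u a)⁻¹ * (u v)⁻¹ ∈ N2 X
      rw [h.comm]
      exact hIN _ (pI_cm_A ha)
    · have hd' : d ∈ N2 X := hd
      obtain ⟨w, rfl⟩ := h.surj d (hXS (N2_le hd'))
      change u a * u w * (u a)⁻¹ * (u w)⁻¹ ∈ D2 X
      rw [h.comm]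
      exact hKD _ (pK_cm_M (h.mem_M.1 (hNM hd')))
    · have hd' : d ∈ D2 X := hd
      obtain ⟨w, hw, rfl⟩ := hDK hd'
      change u a * u w * (u a)⁻¹ * (u w)⁻¹ = 1
      rw [h.comm, cm_K hw, h.one]
    · have hd1 : d = 1 := hd
      have : u a * d * (u a)⁻¹ * d⁻¹ = 1 := by rw [hd1]; group
      exact this

/-- **every essential subgroup contains `A`** -/
theorem A_le_of_ess (hS : IsPGroup 2 S) (h : Emb S u) (hX : IsEss 2 S X H) : h.A ≤ X := by
  by_cases h1 : ∀ v, u v ∈ X → v.a34 = false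
  · exact case_one hS h hX h1
  by_cases h2 : ∀ v, u v ∈ X → v.a23 = false
  · exact case_two hS h hX h2
  push Not at h1 h2
  obtain ⟨v, hv, hv34⟩ := h1
  obtain ⟨w, hw, hw23⟩ := h2
  rw [Bool.ne_false_iff] at hv34 hw23
  by_cases h3 : v.a23 = true
  · exact case_three hS h hX hv h3 hv34
  by_cases h4 : w.a34 = true
  · exact case_three hS h hX hw hw23 h4
  have h5 : u (mul v w) ∈ X := by
    rw [h.mul]
    exact mul_mem hv hw
  rw [Bool.not_eq_true] at h3 h4
  exact case_three hS h hX h5 (by simp [mul, h3, hw23]) (by simp [mul, hv34, h4])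

omit [Finite G] in
theorem Emb.conj_A (h : Emb S u) {g : G} (hg : h.A.map (MulAut.conj g).toMonoidHom ≤ S) :
    h.A.map (MulAut.conj g).toMonoidHom = h.A := by
  apply h.unique hg
  · have hc := h.A_comm
    infer_instance
  · rw [Subgroup.card_map_of_injective (MulAut.conj g).injective, h.card_A]

omit [Finite G] in
theorem Emb.conj_mem_A (h : Emb S u) {g : G} (hg : h.A.map (MulAut.conj g).toMonoidHom ≤ S) {a : G}
    (ha : a ∈ h.A) : g * a * g⁻¹ ∈ h.A := by
  have h1 : g * a * g⁻¹ ∈ h.A.map (MulAut.conj g).toMonoidHom := ⟨a, ha, rfl⟩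
  rwa [h.conj_A hg] at h1

/-- **`A` is strongly closed** -/
theorem Emb.isStronglyClosed (T : Sylow 2 G) (h : Emb (T : Subgroup G) u) :
    Cfsg.IsStronglyClosed h.A (T : Subgroup G) := by
  have f2 : Fact (Nat.Prime 2) := ⟨Nat.prime_two⟩
  refine ⟨h.A_le, fun x hx g hg => ?_⟩
  set F : Subgroup G → Prop := fun X => X = (T : Subgroup G) ∨ Cfsg.Agent.Lib.EssDefs.Ess 2 (T : Subgroup G) X
    with hF
  have h1 := gen_of_conj T F (Or.inl rfl) (fun X hX => Or.inr hX) (A := zpowers x)
    (by rw [zpowers_le]; exact h.A_le hx) (g := g) (by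
      rintro _ ⟨y, hy, rfl⟩
      obtain ⟨k, rfl⟩ := hy
      change g * x ^ k * g⁻¹ ∈ (T : Subgroup G)
      rw [← conj_zpow]
      exact zpow_mem hg k)
  have key : ∀ X : Subgroup G, F X → ∀ g ∈ normalizer (X : Set G), ∀ a ∈ h.A, g * a * g⁻¹ ∈ h.A := by
    rintro X (rfl | ⟨H, hX⟩) g hg a ha
    · refine h.conj_mem_A ?_ ha
      rintro _ ⟨b, hb, rfl⟩
      exact (mem_normalizer_iff.1 hg b).1 (h.A_le hb)
    · have hle := A_le_of_ess T.2 h hX
      refine h.conj_mem_A ?_ ha
      rintro _ ⟨b, hb, rfl⟩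
      exact hX.lt.le ((mem_normalizer_iff.1 hg b).1 (hle hb))
  have h2 := h1.invariant (fun x => x ∈ h.A) (fun X _ hX g hg x _ => by
    apply propext
    constructor
    · intro h3
      have h4 := key X hX g⁻¹ (inv_mem hg) _ h3
      have e : g⁻¹ * (g * x * g⁻¹) * g⁻¹⁻¹ = x := by group
      rwa [e] at h4
    · intro h3
      exact key X hX g hg x h3) x (mem_zpowers x)
  exact h2.symm ▸ hx

end Cfsg.Agent.H302
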