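import Cfsg.Agent.H302.Ess2

/-!
# Code facts used for the layer (helper302)
-/

set_option autoImplicit false

namespace Cfsg.Agent.H302

open Subgroup

abbrev c23 : V := ⟨false, true, false, false, false, false, false, false, false⟩
abbrev c34 : V := ⟨false, false, true, false, false, false, false, false, false⟩
abbrev c24 : V := ⟨false, false, false, false, false, true, false, false, false⟩

theorem dp_half {w w' : V} (h1 : ∀ a, pA a = true → ∃ a', pA a' = true ∧ cm w' a' = cm w a)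
    (h2 : ∀ a, pA a = true → cm w (cm w a) = one) (h3 : ∀ a, pA a = true → cm w' (cm w a) = one) :
    (w.a23 = true → dp w = dp w') ∧ (w.a34 = true → dp w = dp w') ∧ (w.a24 = true → dp w' ≠ d0) := by
  obtain ⟨s12, s23, s34, s45, s13, s24, s35, s14, s25⟩ := w
  obtain ⟨t12, t23, t34, t45, t13, t24, t35, t14, t25⟩ := w'
  refine ⟨fun hs => ?_, fun hs => ?_, fun hs => ?_⟩
  · simp only at hs
    subst hs
    have e1 := congrArg V.a14 (h2 c12 (by decide))
    have e2 := congrArg V.a14 (h3 c12 (by decide))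
    simp [cm, one] at e1 e2
    subst e1 e2
    obtain ⟨a, ha, ha'⟩ := h1 c12 (by decide)
    obtain ⟨b12, b23, b34, b45, b13, b24, b35, b14, b25⟩ := a
    rw [pA_iff] at ha
    simp only at ha
    obtain ⟨rfl, rfl, rfl⟩ := ha
    have e3 := congrArg V.a13 ha'
    have e4 := congrArg V.a14 ha'
    simp [cm] at e3 e4
    obtain ⟨rfl, rfl⟩ := e3
    simp at e4
    simp [dp, e4]
  · simp only at hs
    subst hs
    have e1 := congrArg V.a25 (h2 c45 (by decide))
    have e2 := congrArg V.a25 (h3 c45 (by decide))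
    simp [cm, one] at e1 e2
    subst e1 e2
    obtain ⟨a, ha, ha'⟩ := h1 c45 (by decide)
    obtain ⟨b12, b23, b34, b45, b13, b24, b35, b14, b25⟩ := a
    rw [pA_iff] at ha
    simp only at ha
    obtain ⟨rfl, rfl, rfl⟩ := ha
    have e3 := congrArg V.a35 ha'
    have e4 := congrArg V.a25 ha'
    simp [cm] at e3 e4
    obtain ⟨rfl, rfl⟩ := e3
    simp at e4
    simp [dp, e4]
  · intro h4
    simp only at hs
    subst hs
    simp only [dp, d0, Prod.mk.injEq] at h4
    obtain ⟨rfl, rfl, rfl⟩ := h4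
    have e1 := congrArg V.a14 (h2 c12 (by decide))
    simp [cm, one] at e1
    obtain ⟨a, ha, ha'⟩ := h1 c12 (by decide)
    obtain ⟨b12, b23, b34, b45, b13, b24, b35, b14, b25⟩ := a
    rw [pA_iff] at ha
    simp only at ha
    obtain ⟨rfl, rfl, rfl⟩ := ha
    have e3 := congrArg V.a13 ha'
    have e4 := congrArg V.a14 ha'
    simp [cm] at e3 e4
    subst e3
    simp at e4

theorem dp_eq {w w' : V} (h1 : ∀ a, pA a = true → ∃ a', pA a' = true ∧ cm w' a' = cm w a)
    (h1' : ∀ a, pA a = true → ∃ a', pA a' = true ∧ cm w a' = cm w' a)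
    (h2 : ∀ a, pA a = true → cm w (cm w a) = one) (h3 : ∀ a, pA a = true → cm w' (cm w a) = one)
    (h2' : ∀ a, pA a = true → cm w' (cm w' a) = one) (h3' : ∀ a, pA a = true → cm w (cm w' a) = one) :
    dp w = dp w' := by
  obtain ⟨k1, k2, k3⟩ := dp_half h1 h2 h3
  obtain ⟨l1, l2, l3⟩ := dp_half h1' h2' h3'
  by_contra hne
  have n1 : w.a23 = false := by
    rw [← Bool.not_eq_true]
    exact fun h => hne (k1 h)
  have n2 : w.a34 = false := by
    rw [← Bool.not_eq_true]
    exact fun h => hne (k2 h)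
  have n3 : w'.a23 = false := by
    rw [← Bool.not_eq_true]
    exact fun h => hne (l1 h).symm
  have n4 : w'.a34 = false := by
    rw [← Bool.not_eq_true]
    exact fun h => hne (l2 h).symm
  rcases h5 : w.a24 with _ | _ <;> rcases h6 : w'.a24 with _ | _
  · exact hne (by simp [dp, n1, n2, n3, n4, h5, h6])
  · exact l3 h6 (by simp [dp, n1, n2, h5])
  · exact k3 h5 (by simp [dp, n3, n4, h6])
  · exact hne (by simp [dp, n1, n2, n3, n4, h5, h6])

theorem pA_of_dp {w w' : V} (h : dp w = dp w') : pA (mul (iv w) w') = true := by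
  obtain ⟨s12, s23, s34, s45, s13, s24, s35, s14, s25⟩ := w
  obtain ⟨t12, t23, t34, t45, t13, t24, t35, t14, t25⟩ := w'
  simp only [dp, Prod.mk.injEq] at h
  obtain ⟨rfl, rfl, rfl⟩ := h
  simp only [pA, mul, iv]
  revert s23 s34 s24
  decide

variable {G : Type*} [Group G] {S : Subgroup G} {u : V → G}

theorem Emb.inv_mul_mem_A (h : Emb S u) {w w' : V} (hd : dp w = dp w') : (u w)⁻¹ * u w' ∈ h.A := by
  rw [h.inv, ← h.mul, h.mem_A]
  exact pA_of_dp hd

theorem Emb.self_cent (h : Emb S u) {s : G} (hs : s ∈ S) (hc : ∀ a ∈ h.A, s * a = a * s) : s ∈ h.A := by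
  obtain ⟨w, rfl⟩ := h.surj s hs
  have hc' : ∀ a, pA a = true → cm w a = H302.one := fun a ha => h.cm_of_commute (hc _ (h.mem_A.2 ha))
  have e1 := congrArg V.a13 (hc' c12 (by decide))
  have e2 := congrArg V.a14 (hc' c12 (by decide))
  have e3 := congrArg V.a35 (hc' c45 (by decide))
  simp [cm, H302.one] at e1 e2 e3
  rw [h.mem_A, pA_iff]
  simp [e1] at e2
  exact ⟨e1, e3, e2⟩

/-- `[t, A] ≤ Z(S)` for `t` with image `(0, 0, 1)` -/
theorem pK_cm_A {t a : V} (ht : dp t = (false, false, true)) (ha : pA a = true) : pK (cm t a) = true := by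
  rw [pA_iff] at ha
  obtain ⟨h1, h2, h3⟩ := ha
  simp only [dp, Prod.mk.injEq] at ht
  obtain ⟨k1, k2, k3⟩ := ht
  rw [pK_iff]
  simp [cm, h1, h2, h3, k1, k2]

theorem pI_of_comm {t a : V} (ht : dp t = (false, false, true)) (ha : pA a = true) (h : cm t a = one) :
    pI a = true := by
  rw [pA_iff] at ha
  obtain ⟨h1, h2, h3⟩ := ha
  simp only [dp, Prod.mk.injEq] at ht
  obtain ⟨k1, k2, k3⟩ := ht
  have e1 := congrArg V.a14 h
  have e2 := congrArg V.a25 h
  simp [cm, one, h1, h2, h3, k1, k2, k3] at e1 e2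
  rw [pI_iff]
  exact ⟨h1, h2, h3, e1, e2⟩

theorem cm_of_pI {t a : V} (ht : dp t = (false, false, true)) (ha : pI a = true) : cm t a = one := by
  rw [pI_iff] at ha
  obtain ⟨h1, h2, h3, h4, h5⟩ := ha
  simp only [dp, Prod.mk.injEq] at ht
  obtain ⟨k1, k2, k3⟩ := ht
  apply V.ext' <;> simp [cm, one, h1, h2, h3, h4, h5, k1, k2]

end Cfsg.Agent.H302
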