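import Cfsg.Agent.H302.NCCodes
import Cfsg.Agent.H302.OddStep
import Cfsg.Agent.SylowL.NoCompT
import Cfsg.Agent.SylowL5.Ctrl
import Cfsg.Agent.HexGlob.CompTools

/-!
# No components (helper302)

`layer_eq_bot`: a group with trivial odd core whose Sylow 2-subgroup is `UT_5(2)/Z` has no components.
-/

set_option autoImplicit false
set_option linter.unusedSectionVars false

namespace Cfsg.Agent.H302.NC

open Subgroup Cfsg Cfsg.Agent.H302
open Cfsg.Agent.SignalizersComponents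
open Cfsg.Agent.SignalizersComponents.Components
open Cfsg.Agent.SignalizersComponents.ComponentExists (layer_eq_bot_iff)
open Cfsg.Agent.SylowL.CompFacts
open Cfsg.Agent.SylowL.NoComp
open Cfsg.Agent.HexGlob.CompTools

universe u

variable {X : Type u} [Group X] [Finite X] {T : Sylow 2 X} {K : Subgroup X} {u : V → X}

/-- the data of this section -/
structure Dat (T : Sylow 2 X) (K : Subgroup X) (u : V → X) : Prop where
  emb : Emb (T : Subgroup X) u
  gold : GoldHyp.{u}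
  core : Cfsg.oddCore X = ⊥
  comp : Cfsg.IsComponent K

namespace Dat

variable (d : Dat T K u)

include d

theorem sc : Cfsg.IsStronglyClosed d.emb.A (T : Subgroup X) := d.emb.isStronglyClosed T

theorem cA {a b : X} (ha : a ∈ d.emb.A) (hb : b ∈ d.emb.A) : a * b = b * a :=
  elem_comm d.emb.A_elem ha hb

theorem not_le : ¬ K ≤ centralizer (d.emb.A : Set X) :=
  not_le_centralizer d.core T (fun _ hs hc => d.emb.self_cent hs hc) d.comp

theorem split {a : X} (ha : a ∈ d.emb.A) :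
    ∃ v ∈ d.emb.A ⊓ K, ∃ c ∈ d.emb.A ⊓ centralizer (K : Set X), a = v * c :=
  d.gold.inner X d.core T d.emb.A d.emb.A_elem d.sc K d.comp d.not_le a ha

theorem exists_nc : ∃ v ∈ d.emb.A ⊓ K, v ∉ centralizer (K : Set X) :=
  exists_not_central d.gold d.core d.emb.A_elem d.sc d.comp d.not_le

/-- `A` normalises `K` -/
theorem A_norm : d.emb.A ≤ normalizer (K : Set X) := by
  intro a ha
  obtain ⟨v, hv, c, hc, rfl⟩ := d.split ha
  exact mul_mem (le_normalizer hv.2) (centralizer_le_normalizer _ hc.2)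

/-- commutators of `A` with elements of `T ∩ K` centralise `K` -/
theorem comm_split {k : X} (hkK : k ∈ K) {v c : X} (hc : c ∈ centralizer (K : Set X)) :
    k * (v * c) * k⁻¹ * (v * c)⁻¹ = k * v * k⁻¹ * v⁻¹ := by
  have h3 : k * c = c * k := mem_centralizer_iff.1 hc k hkK
  calc k * (v * c) * k⁻¹ * (v * c)⁻¹ = k * v * (c * k⁻¹) * c⁻¹ * v⁻¹ := by group
    _ = k * v * (k⁻¹ * (k * c) * k⁻¹) * c⁻¹ * v⁻¹ := by group
    _ = k * v * (k⁻¹ * (c * k) * k⁻¹) * c⁻¹ * v⁻¹ := by rw [h3]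
    _ = k * v * k⁻¹ * v⁻¹ := by group

theorem comm_mem {k : X} (hk : k ∈ (T : Subgroup X) ⊓ K) {a : X} (ha : a ∈ d.emb.A) :
    k * a * k⁻¹ * a⁻¹ ∈ centralizer (K : Set X) := by
  obtain ⟨v, hv, c, hc, rfl⟩ := d.split ha
  rw [d.comm_split hk.2 hc.2]
  exact commutator_mem d.gold d.core d.emb.A_elem d.sc d.comp d.not_le hv hk

/-- **Step 2** -/
theorem le_A : (T : Subgroup X) ⊓ K ≤ d.emb.A := by
  have ctx : Ctx K := ⟨d.core, d.comp⟩
  refine ctx.focal T ?_
  intro k hk g hg hgk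
  have : Fact (Nat.Prime 2) := ⟨Nat.prime_two⟩
  obtain ⟨R, hR⟩ := ctx.exists_sylow T
  have hRm : ∀ y : K, y ∈ (R : Subgroup K) ↔ (y : X) ∈ (T : Subgroup X) := fun y => by
    rw [hR, mem_subgroupOf]
  -- control of fusion in `K`
  obtain ⟨n, hnA, hnk⟩ : ∃ n ∈ K, (∀ v ∈ d.emb.A ⊓ K, n * v * n⁻¹ ∈ d.emb.A ⊓ K) ∧
      (∀ v ∈ d.emb.A ⊓ K, n⁻¹ * v * n ∈ d.emb.A ⊓ K) ∧ n * k * n⁻¹ = g * k * g⁻¹ := by
    obtain ⟨n, hn, hn'⟩ := Cfsg.Agent.SylowL5.Ctrl.strong_control R (d.emb.A.subgroupOf K)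
      (fun x hx => (hRm x).2 (d.emb.A_le hx))
      (fun a ha b hb => Subtype.ext (d.cA ha hb))
      (fun a ha y hy => d.sc.2 a ha y ((hRm _).1 hy))
      (D := zpowers ⟨k, hk.2⟩) (by
        rw [zpowers_le]
        exact (hRm _).2 hk.1) (g := ⟨g, hg⟩) (by
        rintro _ ⟨y, hy, rfl⟩
        obtain ⟨i, rfl⟩ := hy
        refine (hRm _).2 ?_
        change g * (((⟨k, hk.2⟩ : K) ^ i : K) : X) * g⁻¹ ∈ (T : Subgroup X)
        rw [Subgroup.coe_zpow, ← conj_zpow]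
        exact zpow_mem hgk i)
    refine ⟨n, n.2, ?_, ?_, congrArg Subtype.val (hn' _ (mem_zpowers _))⟩
    · intro v hv
      have h1 := (mem_normalizer_iff.1 hn ⟨v, hv.2⟩).1 hv.1
      exact ⟨h1, K.mul_mem (K.mul_mem n.2 hv.2) (K.inv_mem n.2)⟩
    · intro v hv
      have h1 := (mem_normalizer_iff''.1 hn ⟨v, hv.2⟩).1 hv.1
      exact ⟨h1, K.mul_mem (K.mul_mem (K.inv_mem n.2) hv.2) n.2⟩
  obtain ⟨hn1, hn2, hnk⟩ := hnk
  rw [← hnk]
  rw [← hnk] at hgk
  have hk' : n * k * n⁻¹ ∈ (T : Subgroup X) ⊓ K := ⟨hgk, K.mul_mem (K.mul_mem hnA hk.2) (K.inv_mem hnA)⟩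
  obtain ⟨w, hw⟩ := d.emb.surj k hk.1
  obtain ⟨w', hw'⟩ := d.emb.surj _ hgk
  have key : ∀ (n k : X), n ∈ K → (∀ v ∈ d.emb.A ⊓ K, n * v * n⁻¹ ∈ d.emb.A ⊓ K) →
      k ∈ (T : Subgroup X) ⊓ K → n * k * n⁻¹ ∈ (T : Subgroup X) ⊓ K → ∀ w w' : V, u w = k →
      u w' = n * k * n⁻¹ → ∀ a, pA a = true → ∃ a', pA a' = true ∧ cm w' a' = cm w a := by
    intro n k hnK hn hk hk' w w' hw hw' a ha
    obtain ⟨v, hv, c, hc, hvc⟩ := d.split (d.emb.mem_A.2 ha)
    have h1 := hn v hv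
    obtain ⟨a', ha', hva'⟩ := h1.1
    refine ⟨a', ha', ?_⟩
    apply d.emb.inj
    rw [← d.emb.comm, ← d.emb.comm, hw, hw', hva', hvc, d.comm_split hk.2 hc.2]
    have h2 := commutator_mem d.gold d.core d.emb.A_elem d.sc d.comp d.not_le hv hk
    have h3 := mem_centralizer_iff.1 h2 n hnK
    calc n * k * n⁻¹ * (n * v * n⁻¹) * (n * k * n⁻¹)⁻¹ * (n * v * n⁻¹)⁻¹ =
        n * (k * v * k⁻¹ * v⁻¹) * n⁻¹ := by group
      _ = k * v * k⁻¹ * v⁻¹ := by rw [h3]; group
  have key2 : ∀ (k k' : X), k ∈ (T : Subgroup X) ⊓ K → k' ∈ (T : Subgroup X) ⊓ K → ∀ w w' : V, u w = k →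
      u w' = k' → ∀ a, pA a = true → cm w' (cm w a) = one := by
    intro k k' hk hk' w w' hw hw' a ha
    apply d.emb.cm_of_commute
    rw [← d.emb.comm w a, hw, hw']
    exact mem_centralizer_iff.1 (d.comm_mem hk (d.emb.mem_A.2 ha)) k' hk'.2
  have e1 := key n k hnA hn1 hk hk' w w' hw hw'
  have e2 := key n⁻¹ (n * k * n⁻¹) (inv_mem hnA) (fun v hv => by rw [inv_inv]; exact hn2 v hv) hk'
    (by
      have : n⁻¹ * (n * k * n⁻¹) * n⁻¹⁻¹ = k := by group
      rw [this]; exact hk) w' w hw' (by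
      have : n⁻¹ * (n * k * n⁻¹) * n⁻¹⁻¹ = k := by group
      rw [this]; exact hw)
  have h1 := dp_eq e1 e2 (key2 k k hk hk w w hw hw) (key2 k _ hk hk' w w' hw hw')
    (key2 _ _ hk' hk' w' w' hw' hw') (key2 _ k hk' hk w' w hw' hw)
  have h2 := d.emb.inv_mul_mem_A h1
  rwa [hw, hw'] at h2

/-- **Step 3** -/
theorem center_eq : K ⊓ centralizer (K : Set X) = ⊥ := by
  have ctx : Ctx K := ⟨d.core, d.comp⟩
  have : Fact (Nat.Prime 2) := ⟨Nat.prime_two⟩
  obtain ⟨R, hR⟩ := ctx.exists_sylow T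
  have hRm : ∀ y : K, y ∈ (R : Subgroup K) ↔ (y : X) ∈ (T : Subgroup X) := fun y => by
    rw [hR, mem_subgroupOf]
  rw [eq_bot_iff]
  intro x hx
  have hxT : x ∈ (T : Subgroup X) := ctx.center_le T hx
  have hcomm : IsMulCommutative (R : Subgroup K) := by
    refine ⟨⟨fun y z => Subtype.ext (Subtype.ext ?_)⟩⟩
    have hy : ((y : K) : X) ∈ d.emb.A := d.le_A ⟨(hRm _).1 y.2, (y : K).2⟩
    have hz : ((z : K) : X) ∈ d.emb.A := d.le_A ⟨(hRm _).1 z.2, (z : K).2⟩
    exact d.cA hy hz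
  have hxR : (⟨x, hx.1⟩ : K) ∈ (R : Subgroup K) := (hRm _).2 hxT
  have h3 := S0089.pow_index_eq_one_of_mem (R : Subgroup K) ⟨x, hx.1⟩
    (by rw [d.comp.2.1.commutator_eq_top]; exact mem_top _) (mem_center_coe.2 hx.2)
  have h5 : x * x = 1 := elem_sq d.emb.A_elem (d.le_A ⟨hxT, hx.1⟩)
  have hodd : ¬ 2 ∣ (R : Subgroup K).index := R.not_dvd_index
  obtain ⟨j, hj⟩ : ∃ j, (R : Subgroup K).index = 2 * j + 1 := by
    refine ⟨(R : Subgroup K).index / 2, ?_⟩
    omega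
  have h6 : x ^ (2 * j + 1) = 1 := by
    rw [← hj]
    exact congrArg Subtype.val h3
  rw [pow_succ, pow_mul, pow_two, h5, one_pow, one_mul] at h6
  exact h6

theorem notin {x : X} (hx : x ∈ K) (h1 : x ≠ 1) : x ∉ centralizer (K : Set X) := by
  intro h
  have h2 : x ∈ K ⊓ centralizer (K : Set X) := ⟨hx, h⟩
  rw [d.center_eq] at h2
  exact h1 h2

/-- **Step 4** -/
theorem norm_or {t : V} (ht : dp t = (false, false, true)) (hn : u t ∉ normalizer (K : Set X)) {s : X}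
    (hs : s ∈ (T : Subgroup X)) : s ∈ normalizer (K : Set X) ∨ s * u t ∈ normalizer (K : Set X) := by
  by_contra hcon
  push Not at hcon
  obtain ⟨h1, h2⟩ := hcon
  obtain ⟨v, hv, hv'⟩ := d.exists_nc
  obtain ⟨a, ha, hav⟩ := hv.1
  have h3 : u t * v * (u t)⁻¹ * v⁻¹ = u (cm t a) := by rw [← hav, d.emb.comm]
  have h4 : pK (cm t a) = true := pK_cm_A ht ha
  obtain ⟨w, rfl⟩ := d.emb.surj s hs
  have h5 : u w * u (cm t a) = u (cm t a) * u w := d.emb.commute (cm_K h4)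
  rw [← h3] at h5
  have hcen : ∀ s : X, s ∉ normalizer (K : Set X) → s * v * s⁻¹ ∈ centralizer (K : Set X) := by
    intro s hs
    rw [mem_centralizer_iff]
    intro k hk
    exact (commute_of_notMem_normalizer d.comp hs hv.2 hk).symm
  apply hv'
  have h6 : v = (u w * v * (u w)⁻¹) * (u w * u t * v * (u w * u t)⁻¹)⁻¹ * (u t * v * (u t)⁻¹) := by
    have h7 : u w * (u t * v * (u t)⁻¹ * v⁻¹) * (u w)⁻¹ = u t * v * (u t)⁻¹ * v⁻¹ := by
      rw [h5]; group
    have h8 : (u w * u t * v * (u w * u t)⁻¹) * (u w * v * (u w)⁻¹)⁻¹ =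
        u w * (u t * v * (u t)⁻¹ * v⁻¹) * (u w)⁻¹ := by group
    have h9 : (u w * v * (u w)⁻¹) * (u w * u t * v * (u w * u t)⁻¹)⁻¹ = (u t * v * (u t)⁻¹ * v⁻¹)⁻¹ := by
      rw [← h7, ← h8]; group
    rw [h9]
    group
  rw [h6]
  exact mul_mem (mul_mem (hcen _ h1) (inv_mem (hcen _ h2))) (hcen _ hn)

theorem norm_of_dp {w w' : V} (h : dp w = dp w') (hw : u w ∈ normalizer (K : Set X)) :
    u w' ∈ normalizer (K : Set X) := by
  have h1 := mul_mem hw (d.A_norm (d.emb.inv_mul_mem_A h))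
  rwa [mul_inv_cancel_left] at h1

theorem t_norm : u c24 ∈ normalizer (K : Set X) := by
  by_contra hn
  have h1 := d.norm_or (t := c24) (by decide) hn (s := u c23) (d.emb.mem _)
  have h2 := d.norm_or (t := c24) (by decide) hn (s := u c34) (d.emb.mem _)
  rw [← d.emb.mul] at h1 h2
  have key : ∀ w w' : V, u w ∈ normalizer (K : Set X) → u w' ∈ normalizer (K : Set X) →
      dp (cm w w') = (false, false, true) → False := by
    intro w w' hw hw' hd
    apply hn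
    refine d.norm_of_dp (w := cm w w') hd ?_
    rw [← d.emb.comm]
    exact mul_mem (mul_mem (mul_mem hw hw') (inv_mem hw)) (inv_mem hw')
  rcases h1 with h1 | h1 <;> rcases h2 with h2 | h2 <;> exact key _ _ h1 h2 (by decide)

theorem T_norm_A {s : X} (hs : s ∈ (T : Subgroup X)) {a : X} (ha : a ∈ d.emb.A) : s * a * s⁻¹ ∈ d.emb.A :=
  d.sc.2 a ha s (mul_mem (mul_mem hs (d.emb.A_le ha)) (inv_mem hs))

theorem mem_normalizer_B {s : X} (hs : s ∈ (T : Subgroup X)) (hsK : s ∈ normalizer (K : Set X)) :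
    s ∈ normalizer ((d.emb.A ⊓ K : Subgroup X) : Set X) := by
  apply Cfsg.Agent.SylowL.NoCompT.mem_normalizer_of_conj_mem
  rintro x ⟨hx1, hx2⟩
  exact ⟨d.T_norm_A hs hx1, (mem_normalizer_iff.1 hsK x).1 hx2⟩

theorem inf_eq : (T : Subgroup X) ⊓ K = d.emb.A ⊓ K :=
  le_antisymm (fun _ hx => ⟨d.le_A hx, hx.2⟩) (fun _ hx => ⟨d.emb.A_le hx.1, hx.2⟩)

/-- an odd power of an element of `N_K(B)` centralises `B` -/
theorem exists_odd {r : X} (hr : r ∈ K) (hrn : r ∈ normalizer ((d.emb.A ⊓ K : Subgroup X) : Set X)) :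
    ∃ j : ℕ, r ^ (2 * j + 1) ∈ centralizer ((d.emb.A ⊓ K : Subgroup X) : Set X) := by
  have ctx : Ctx K := ⟨d.core, d.comp⟩
  have f2 : Fact (Nat.Prime 2) := ⟨Nat.prime_two⟩
  obtain ⟨R, hR⟩ := ctx.exists_sylow T
  have hRm : ∀ y : K, y ∈ (R : Subgroup K) ↔ (y : X) ∈ (T : Subgroup X) := fun y => by
    rw [hR, mem_subgroupOf]
  have hRm' : ∀ y : K, y ∈ (R : Subgroup K) ↔ (y : X) ∈ d.emb.A ⊓ K := fun y => by
    rw [hRm, ← d.inf_eq]
    exact ⟨fun h => ⟨h, y.2⟩, fun h => h.1⟩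
  set y : K := ⟨r, hr⟩ with hy
  obtain ⟨e, m, hm, hem⟩ := Nat.exists_eq_pow_mul_and_not_dvd (orderOf_pos y).ne' 2 (by norm_num)
  have hyR : y ∈ normalizer ((R : Subgroup K) : Set K) := by
    rw [mem_normalizer_iff]
    intro z
    rw [hRm', hRm']
    exact mem_normalizer_iff.1 hrn z
  have h1 : y ^ m ∈ (R : Subgroup K) := by
    have h2 : IsPGroup 2 (zpowers (y ^ m)) := by
      apply IsPGroup.of_card (n := e)
      rw [Nat.card_zpowers, orderOf_pow_of_dvd (by rintro rfl; simp at hm) (by rw [hem]; exact Dvd.intro_left _ rfl),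
        hem, Nat.mul_div_cancel _ (by
          rcases Nat.eq_zero_or_pos m with h0 | h0
          · rw [h0] at hm; simp at hm
          · exact h0)]
    have h3 := h2.inf_normalizer_sylow R
    have h4 : y ^ m ∈ zpowers (y ^ m) ⊓ normalizer ((R : Subgroup K) : Set K) :=
      ⟨mem_zpowers _, pow_mem hyR m⟩
    exact (h3.le h4).2
  obtain ⟨j, hj⟩ : ∃ j, m = 2 * j + 1 := ⟨m / 2, by omega⟩
  refine ⟨j, ?_⟩
  have h5 : r ^ m ∈ d.emb.A := ((hRm' _).1 h1).1
  rw [← hj, mem_centralizer_iff]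
  intro x hx
  exact d.cA hx.1 h5

/-- **Step 5** -/
theorem step5 {a b : X} (ha : a ∈ d.emb.A ⊓ K) (ha1 : a ≠ 1) (hta : u c24 * a = a * u c24)
    (hb : b ∈ d.emb.A ⊓ K) (hb1 : u c24 * b * (u c24)⁻¹ * b⁻¹ ≠ 1) :
    ∃ b1 ∈ d.emb.A ⊓ K, a = u c24 * b1 * (u c24)⁻¹ * b1⁻¹ := by
  have htT : u c24 ∈ (T : Subgroup X) := d.emb.mem _
  have htN := d.mem_normalizer_B htT d.t_norm
  have htb : u c24 * b * (u c24)⁻¹ * b⁻¹ ∈ d.emb.A ⊓ K :=
    Subgroup.mul_mem _ ((mem_normalizer_iff.1 htN b).1 hb) (Subgroup.inv_mem _ hb)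
  obtain ⟨n, hnK, hnT, hn⟩ := Cfsg.Agent.SylowL.NoCompT.exists_conj d.gold d.core d.emb.A_elem d.sc d.comp
    htb (d.notin htb.2 hb1) ha (d.notin ha.2 ha1)
  rw [d.inf_eq] at hnT
  have hn' : n * (u c24 * b * (u c24)⁻¹ * b⁻¹) * n⁻¹ = a := by
    by_contra hne
    refine d.notin (x := a⁻¹ * (n * (u c24 * b * (u c24)⁻¹ * b⁻¹) * n⁻¹)) ?_ ?_ hn
    · exact K.mul_mem (K.inv_mem ha.2) (K.mul_mem (K.mul_mem hnK htb.2) (K.inv_mem hnK))
    · intro h
      exact hne (inv_mul_eq_one.1 h).symm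
  have hr : u c24 * n * (u c24)⁻¹ * n⁻¹ ∈ K :=
    K.mul_mem ((mem_normalizer_iff.1 d.t_norm n).1 hnK) (K.inv_mem hnK)
  obtain ⟨j, hj⟩ := d.exists_odd hr (mul_mem (mul_mem (mul_mem htN hnT) (inv_mem htN)) (inv_mem hnT))
  refine odd_step (B := d.emb.A ⊓ K) (fun x hx => elem_sq d.emb.A_elem hx.1)
    (fun x hx y hy => d.cA hx.1 hy.1) htN hnT ?_ hj ha hb hta hn'
  rw [← d.emb.mul]
  have h1 : u (mul c24 c24) = 1 := by
    rw [← d.emb.one]
    congr 1
  rw [h1]
  exact one_mem _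

theorem contra : False := by
  obtain ⟨v, hv, hv'⟩ := d.exists_nc
  by_cases hc : ∃ b ∈ d.emb.A ⊓ K, u c24 * b * (u c24)⁻¹ * b⁻¹ ≠ 1
  · obtain ⟨b, hb, hb1⟩ := hc
    have htN := d.mem_normalizer_B (d.emb.mem c24) d.t_norm
    have htb : u c24 * b * (u c24)⁻¹ * b⁻¹ ∈ d.emb.A ⊓ K :=
      Subgroup.mul_mem _ ((mem_normalizer_iff.1 htN b).1 hb) (Subgroup.inv_mem _ hb)
    obtain ⟨w, hw, rfl⟩ := hb.1
    rw [d.emb.comm] at hb1 htb
    -- `T` normalises `K`
    have hTK : ∀ s ∈ (T : Subgroup X), s ∈ normalizer (K : Set X) := by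
      intro s hs
      obtain ⟨y, rfl⟩ := d.emb.surj s hs
      refine mem_normalizer_of_commute d.comp htb.2 (d.notin htb.2 hb1) ?_
      exact d.emb.commute (cm_K (pK_cm_A (by decide) hw))
    -- every element of `I ∩ K` lies in the centre
    have key : ∀ s : V, pI (cm s w) = true → pK (cm s w) = true := by
      intro s hs
      by_cases h1 : cm s w = one
      · rw [h1]; decide
      have hsN := d.mem_normalizer_B (d.emb.mem s) (hTK _ (d.emb.mem s))
      have h2 : u (cm s w) ∈ d.emb.A ⊓ K := by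
        rw [← d.emb.comm]
        exact Subgroup.mul_mem _ ((mem_normalizer_iff.1 hsN _).1 hb) (Subgroup.inv_mem _ hb)
      obtain ⟨b1, hb1', he⟩ := d.step5 h2 (by
        intro h3
        apply h1
        apply d.emb.inj
        rw [h3, d.emb.one]) (d.emb.commute (cm_of_pI (by decide) hs)) hb (by rwa [d.emb.comm])
      obtain ⟨w1, hw1, rfl⟩ := hb1'.1
      rw [d.emb.comm] at he
      rw [d.emb.inj he]
      exact pK_cm_A (by decide) hw1
    rw [pA_iff] at hw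
    obtain ⟨h1, h2, h3⟩ := hw
    apply hb1
    rw [← d.emb.one]
    congr 1
    have k1 := key c23 (by rw [pI_iff]; simp [cm, h1, h2])
    have k2 := key c34 (by rw [pI_iff]; simp [cm, h1, h2])
    rw [pK_iff] at k1 k2
    simp [cm, h1, h2, h3] at k1 k2
    apply V.ext' <;> simp [cm, one, h1, h2, h3, k1, k2]
  · push Not at hc
    -- `Z(T)` centralises `K`
    have hZ : ∀ a, pA a = true → u (cm c24 a) ∈ centralizer (K : Set X) := by
      intro a ha
      obtain ⟨x, hx, c, hc', hxc⟩ := d.split (d.emb.mem_A.2 ha)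
      rw [← d.emb.comm, hxc]
      have h1 := hc x hx
      have h2 : u c24 * (x * c) * (u c24)⁻¹ * (x * c)⁻¹ = x * (u c24 * c * (u c24)⁻¹ * c⁻¹) * x⁻¹ := by
        have h3 : u c24 * x * (u c24)⁻¹ = x := mul_inv_eq_one.1 h1
        calc u c24 * (x * c) * (u c24)⁻¹ * (x * c)⁻¹ =
            (u c24 * x * (u c24)⁻¹) * (u c24 * c * (u c24)⁻¹ * c⁻¹) * x⁻¹ := by group
          _ = x * (u c24 * c * (u c24)⁻¹ * c⁻¹) * x⁻¹ := by rw [h3]
      rw [h2]
      apply conj_mem_centralizer (le_normalizer hx.2)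
      exact mul_mem (conj_mem_centralizer d.t_norm hc'.2) (inv_mem hc'.2)
    obtain ⟨w, hw, rfl⟩ := hv.1
    have hv1 : cm c24 w = one := by
      apply d.emb.inj
      rw [← d.emb.comm, hc _ hv, d.emb.one]
    have hwI := pI_of_comm (by decide) hw hv1
    -- elements moving `v` by an element of `Z(T)`
    have key : ∀ (s : V) (a : V), pA a = true → cm s w = cm c24 a → cm s w = one := by
      intro s a ha hs
      have h1 : u (cm s w) ∈ centralizer (K : Set X) := by rw [hs]; exact hZ a ha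
      have hsN : u s ∈ normalizer (K : Set X) := by
        by_contra hsN
        apply hv'
        have h2 : u s * u w * (u s)⁻¹ ∈ centralizer (K : Set X) := by
          rw [mem_centralizer_iff]
          intro k hk
          exact (commute_of_notMem_normalizer d.comp hsN hv.2 hk).symm
        have h3 : u w = (u (cm s w))⁻¹ * (u s * u w * (u s)⁻¹) := by
          rw [← d.emb.comm]; group
        rw [h3]
        exact mul_mem (inv_mem h1) h2
      have h4 : u (cm s w) ∈ K := by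
        rw [← d.emb.comm]
        exact K.mul_mem ((mem_normalizer_iff.1 hsN _).1 hv.2) (K.inv_mem hv.2)
      by_contra hne
      refine d.notin h4 ?_ h1
      intro h5
      apply hne
      apply d.emb.inj
      rw [h5, d.emb.one]
    rw [pI_iff] at hwI
    obtain ⟨h1, h2, h3, h4, h5⟩ := hwI
    have k1 := key c34 ⟨w.a13, false, false, false, false, false, false, false, false⟩ (by
      simp [pA]) (by apply V.ext' <;> simp [cm, h1, h2, h3, h4, h5])
    have k2 := key c23 ⟨false, false, false, w.a35, false, false, false, false, false⟩ (by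
      simp [pA]) (by apply V.ext' <;> simp [cm, h1, h2, h3, h4, h5])
    have e1 := congrArg V.a14 k1
    have e2 := congrArg V.a25 k2
    simp [cm, one, h1, h2, h3, h4, h5] at e1 e2
    -- `v` is in the centre of `T`, so centralises `K`
    apply hv'
    have hwK : w = cm c24 ⟨w.a14, false, false, w.a25, false, false, false, false, false⟩ := by
      apply V.ext' <;> simp [cm, h1, h2, h3, h4, h5, e1, e2]
    rw [hwK]
    exact hZ _ (by simp [pA])

end Dat

/-- **No components.** -/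
theorem layer_eq_bot (hG : GoldHyp.{u}) (hO : Cfsg.oddCore X = ⊥) (h : Emb (T : Subgroup X) u) :
    Cfsg.layer X = ⊥ := by
  rw [layer_eq_bot_iff]
  intro K hK
  exact (Dat.mk h hG hO hK : Dat T K u).contra

/-- **`A` is normal** -/
theorem A_normal (hG : GoldHyp.{u}) (hO : Cfsg.oddCore X = ⊥) (h : Emb (T : Subgroup X) u) : h.A.Normal :=
  normal_of_layer hO (layer_eq_bot hG hO h) T (fun _ ha _ hb => elem_comm h.A_elem ha hb) (h.isStronglyClosed T)

end Cfsg.Agent.H302.NC
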