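import Cfsg.Agent.SylowL5.TypeAGen
import Cfsg.Agent.Schreier.Basic
import Cfsg.Agent.SignalizersComponents.BalanceDelta
import Cfsg.Agent.SignalizersComponents.Components
import Cfsg.Agent.SignalizersComponents.ComponentExists
import Cfsg.Agent.SignalizersComponents.CoprimeBasic
import Cfsg.Agent.Schreier.Tools
import Cfsg.Prelude.Def_KGroupFacts
import Cfsg.Prelude.Def_Classification2

/-!
# Components: counting, and perfect groups acting on them (helper302)
-/

set_option autoImplicit false
set_option linter.style.haveILetI false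
set_option linter.unnecessarySimpa false

namespace Cfsg.Agent.H302.Rv

open Subgroup Cfsg
open Cfsg.Agent.SignalizersComponents
open Cfsg.Agent.SignalizersComponents.Components
open scoped commutatorElement

universe u

/-- the consequences of the classification used for `S3173` -/
structure Inp : Prop where
  sch : ∀ (X : Type u) [Group X] [Finite X] [IsSimpleGroup X], Group.IsSolvable (Cfsg.Out X)
  kn : ∀ (X : Type u) [Group X] [Finite X] [IsSimpleGroup X], IsKnownSimple' X

theorem solvable_of_odd {X : Type*} [Group X] [Finite X] (h : Odd (Nat.card X)) : Group.IsSolvable X := by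
  apply Cfsg.Agent.SylowL5.TypeAGen.isSolvable_of_not_four_dvd
  intro h4
  obtain ⟨k, hk⟩ := h
  omega

/-- four divides the order of the simple quotient -/
theorem four_dvd {K : Type*} [Group K] [Finite K] (hK : IsQuasisimple K) : 4 ∣ Nat.card (K ⧸ center K) := by
  by_contra h4
  have h1 := Cfsg.Agent.SylowL5.TypeAGen.isSolvable_of_not_four_dvd h4
  apply quasisimple_not_isSolvable hK
  have h2 : Group.IsSolvable (center K) := Group.isSolvable_of_comm (fun a b => Subtype.ext (mem_center_iff.1 b.2 a))
  exact Group.isSolvable_of_ker_le_range (center K).subtype (QuotientGroup.mk' (center K)) (by simp)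

theorem card_sup_of_le {X : Type*} [Group X] [Finite X] {K E : Subgroup X} (hn : K ≤ normalizer (E : Set X)) :
    Nat.card (K ⊔ E : Subgroup X) = E.relIndex K * Nat.card E := by
  have h1 : (E.subgroupOf (K ⊔ E)).Normal := by
    rw [normal_subgroupOf_iff_le_normalizer le_sup_right]
    exact sup_le hn le_normalizer
  have h2 := (E.subgroupOf (K ⊔ E)).card_mul_index
  rw [Nat.card_congr (subgroupOfEquivOfLe (le_sup_right : E ≤ K ⊔ E)).toEquiv] at h2
  have h3 : (K.subgroupOf (K ⊔ E)) ⊔ (E.subgroupOf (K ⊔ E)) = ⊤ := by
    rw [← subgroupOf_sup le_sup_left le_sup_right, subgroupOf_self]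
  have h4 : (E.subgroupOf (K ⊔ E)).index = E.relIndex K := by
    rw [← relIndex_top_right, ← h3, relIndex_sup_right, relIndex_subgroupOf le_sup_left]
  rw [← h2, h4, mul_comm]

/-- **counting components** -/
theorem four_pow_dvd {X : Type*} [Group X] [Finite X] (T : Finset {K : Subgroup X // IsComponent K}) :
    4 ^ T.card ∣ Nat.card (T.sup (fun K => K.1) : Subgroup X) := by
  classical
  induction T using Finset.induction_on with
  | empty => simp
  | insert K T hKT ih =>
    rw [Finset.sup_insert, Finset.card_insert_of_notMem hKT, pow_succ]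
    have h1 : (T.sup (fun K => K.1) : Subgroup X) ≤ centralizer (K.1 : Set X) := by
      refine Finset.sup_le fun L hL => ?_
      refine component_le_centralizer_of_ne L.2 K.2 ?_
      intro h
      exact hKT ((Subtype.ext h : L = K) ▸ hL)
    set E : Subgroup X := T.sup (fun K => K.1) with hE
    -- `|K E| = |K : K ∩ E| |E|`
    have h2 : Nat.card (K.1 ⊔ E : Subgroup X) = E.relIndex K.1 * Nat.card E := by
      have hn : K.1 ≤ normalizer (E : Set X) := by
        have h4 : E ≤ centralizer (K.1 : Set X) := h1
        have h5 : K.1 ≤ centralizer (E : Set X) := by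
          intro k hk
          rw [mem_centralizer_iff]
          intro e he
          exact ((mem_centralizer_iff.1 (h4 he)) k hk).symm
        exact h5.trans (centralizer_le_normalizer _)
      exact card_sup_of_le hn
    rw [h2, mul_comm]
    refine Nat.mul_dvd_mul ?_ ih
    -- `K ∩ E` is central in `K`
    have h3 : E.subgroupOf K.1 ≤ center K.1 := by
      intro k hk
      rw [mem_center_iff]
      intro g
      exact Subtype.ext ((mem_centralizer_iff.1 (h1 hk)) g g.2)
    have h4 : (center K.1).index ∣ (E.subgroupOf K.1).index := Subgroup.index_dvd_of_le h3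
    exact (four_dvd K.2.2).trans h4

theorem four_pow_card_dvd {X : Type*} [Group X] [Finite X] :
    4 ^ Nat.card {K : Subgroup X // IsComponent K} ∣ Nat.card X := by
  have := Fintype.ofFinite {K : Subgroup X // IsComponent K}
  have h1 := four_pow_dvd (X := X) (Finset.univ : Finset {K : Subgroup X // IsComponent K})
  rw [Finset.card_univ, ← Nat.card_eq_fintype_card] at h1
  exact h1.trans (Subgroup.card_subgroup_dvd_card _)

/-- **perfect groups of automorphisms of a quasisimple group are inner** -/
theorem split {X : Type u} [Group X] [Finite X] (hI : Inp.{u}) {J D : Subgroup X} (hJ : IsQuasisimple J)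
    (hD : ⁅D, D⁆ = D) (hDJ : D ≤ normalizer (J : Set X)) {d : X} (hd : d ∈ D) :
    ∃ j ∈ J, ∃ c ∈ centralizer (J : Set X), d = j * c := by
  have hs : IsSimpleGroup (J ⧸ center J) := hJ.2
  have hsol := hI.sch (J ⧸ center J)
  let f : ↥(normalizer (J : Set X)) →* Cfsg.Out (J ⧸ center J) :=
    (QuotientGroup.mk' (Cfsg.Inn (J ⧸ center J))).comp ((BalanceDelta.autQuot J).comp J.normalizerMonoidHom)
  have hDp : ⁅D.subgroupOf (normalizer (J : Set X)), D.subgroupOf (normalizer (J : Set X))⁆ =
      D.subgroupOf (normalizer (J : Set X)) := by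
    apply map_injective (normalizer (J : Set X)).subtype_injective
    rw [map_commutator, subgroupOf_map_subtype, inf_of_le_left hDJ, hD]
  have h1 : f ⟨d, hDJ hd⟩ = 1 :=
    Cfsg.Agent.Schreier.Basic.apply_eq_one_of_perfect f hDp (c := ⟨d, hDJ hd⟩) (mem_subgroupOf.2 hd)
  have h2 : BalanceDelta.autQuot J (J.normalizerMonoidHom ⟨d, hDJ hd⟩) ∈ Cfsg.Inn (J ⧸ center J) :=
    (QuotientGroup.eq_one_iff _).1 h1
  obtain ⟨jb, hjb⟩ := h2
  obtain ⟨j, rfl⟩ := QuotientGroup.mk'_surjective (center J) jb
  refine ⟨j, j.2, (j : X)⁻¹ * d, ?_, by group⟩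
  -- `j⁻¹ d` acts trivially modulo the centre
  have hjN : (j : X) ∈ normalizer (J : Set X) := le_normalizer j.2
  have h3 : BalanceDelta.autQuot J (J.normalizerMonoidHom (⟨j, hjN⟩⁻¹ * ⟨d, hDJ hd⟩)) = 1 := by
    rw [map_mul, map_mul, ← hjb, map_inv, map_inv, inv_mul_eq_one]
    ext x
    obtain ⟨l, rfl⟩ := QuotientGroup.mk'_surjective (center J) x
    rw [BalanceDelta.autQuot_apply, MulAut.conj_apply, ← map_mul, ← map_inv, ← map_mul]
    congr 1
  have h4 := BalanceDelta.eq_one_of_autQuot_eq_one hJ.1 _ h3
  rw [mem_centralizer_iff]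
  intro x hx
  have h5 := congrArg Subtype.val (h4 ⟨x, hx⟩)
  have h6 : ((j : X)⁻¹ * d) * x * ((j : X)⁻¹ * d)⁻¹ = x := h5
  calc x * ((j : X)⁻¹ * d) = (((j : X)⁻¹ * d) * x * ((j : X)⁻¹ * d)⁻¹) * ((j : X)⁻¹ * d) := by rw [h6]
    _ = (j : X)⁻¹ * d * x := by group

/-- the conjugation action on the components -/
noncomputable def compPerm (X : Type*) [Group X] : X →* Equiv.Perm {K : Subgroup X // IsComponent K} where
  toFun g :=
    { toFun := fun K => ⟨K.1.map (MulAut.conj g).toMonoidHom, isComponent_conj g K.2⟩
      invFun := fun K => ⟨K.1.map (MulAut.conj g⁻¹).toMonoidHom, isComponent_conj g⁻¹ K.2⟩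
      left_inv := by
        intro K
        apply Subtype.ext
        show (K.1.map (MulAut.conj g).toMonoidHom).map (MulAut.conj g⁻¹).toMonoidHom = K.1
        rw [map_map]
        have : (MulAut.conj g⁻¹).toMonoidHom.comp (MulAut.conj g).toMonoidHom = MonoidHom.id X := by
          ext x; simp; group
        rw [this, map_id]
      right_inv := by
        intro K
        apply Subtype.ext
        show (K.1.map (MulAut.conj g⁻¹).toMonoidHom).map (MulAut.conj g).toMonoidHom = K.1
        rw [map_map]
        have : (MulAut.conj g).toMonoidHom.comp (MulAut.conj g⁻¹).toMonoidHom = MonoidHom.id X := by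
          ext x; simp; group
        rw [this, map_id] }
  map_one' := by
    apply Equiv.ext
    intro K
    apply Subtype.ext
    show K.1.map (MulAut.conj 1).toMonoidHom = K.1
    have : (MulAut.conj (1 : X)).toMonoidHom = MonoidHom.id X := by
      ext x; simp
    rw [this, map_id]
  map_mul' := by
    intro g h
    apply Equiv.ext
    intro K
    apply Subtype.ext
    show K.1.map (MulAut.conj (g * h)).toMonoidHom = (K.1.map (MulAut.conj h).toMonoidHom).map (MulAut.conj g).toMonoidHom
    rw [map_map]
    congr 1
    ext x; simp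

theorem mem_normalizer_of_compPerm {X : Type*} [Group X] {g : X} (hg : compPerm X g = 1) {K : Subgroup X}
    (hK : IsComponent K) : g ∈ normalizer (K : Set X) := by
  have h1 : K.map (MulAut.conj g).toMonoidHom = K := congrArg Subtype.val (congrArg (fun p => p ⟨K, hK⟩) hg)
  rw [mem_normalizer_iff]
  intro x
  constructor
  · intro hx
    rw [← h1]
    exact ⟨x, hx, rfl⟩
  · intro hx
    rw [← h1] at hx
    obtain ⟨y, hy, hyx⟩ := hx
    have h2 : g * y * g⁻¹ = g * x * g⁻¹ := hyx
    have h3 : y = x := by
      have := mul_right_cancel h2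
      exact mul_left_cancel this
    rwa [← h3]

/-- with at most four components a perfect subgroup normalises all of them -/
theorem le_normalizer_of_card {X : Type*} [Group X] [Finite X]
    (hc : Nat.card {K : Subgroup X // IsComponent K} ≤ 4) {D : Subgroup X} (hD : ⁅D, D⁆ = D) {K : Subgroup X}
    (hK : IsComponent K) : D ≤ normalizer (K : Set X) := by
  have hsol := Cfsg.Agent.Schreier.Tools.isSolvable_perm_of_card_le_four {K : Subgroup X // IsComponent K} hc
  intro d hd
  exact mem_normalizer_of_compPerm (Cfsg.Agent.Schreier.Basic.apply_eq_one_of_perfect (compPerm X) hD hd) hK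

end Cfsg.Agent.H302.Rv
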